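import Mathlib

/-!
Auxiliary facts for suborbits inducing the alternating group.
-/

set_option autoImplicit false

namespace CfsgLib.OrderDegrees.AltSuborbit

open Equiv

section
variable {α : Type*} [Fintype α] [DecidableEq α]

theorem eq_one_of_centralizes_alt (h5 : 5 ≤ Nat.card α) {x : Perm α}
    (hx : ∀ a ∈ alternatingGroup α, a * x = x * a) : x = 1 := by
  refine Equiv.ext fun i => ?_
  by_contra hij
  rw [Perm.one_apply] at hij
  set j := x i with hj
  obtain ⟨k, hk, hki, hkj⟩ : ∃ k, k ∈ (Finset.univ : Finset α) ∧ k ≠ i ∧ k ≠ j := by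
    by_contra h
    push Not at h
    have : (Finset.univ : Finset α) ⊆ {i, j} := fun k hk => by
      simp only [Finset.mem_insert, Finset.mem_singleton]
      exact (em (k = i)).imp_right (fun hki => h k hk hki)
    have h2 := Finset.card_le_card this
    rw [Finset.card_univ, ← Nat.card_eq_fintype_card] at h2
    have := Finset.card_le_two (a := i) (b := j)
    omega
  obtain ⟨l, hl, hli, hlj, hlk⟩ : ∃ l, l ∈ (Finset.univ : Finset α) ∧ l ≠ i ∧ l ≠ j ∧ l ≠ k := by
    by_contra h
    push Not at h
    have : (Finset.univ : Finset α) ⊆ {i, j, k} := fun l hl => by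
      simp only [Finset.mem_insert, Finset.mem_singleton]
      by_contra hh
      push Not at hh
      exact hh.2.2 (h l hl hh.1 hh.2.1)
    have h2 := Finset.card_le_card this
    rw [Finset.card_univ, ← Nat.card_eq_fintype_card] at h2
    have := Finset.card_le_three (a := i) (b := j) (c := k)
    omega
  have ha : swap j k * swap k l ∈ alternatingGroup α := by
    rw [Perm.mem_alternatingGroup, map_mul, Perm.sign_swap hkj.symm, Perm.sign_swap hlk.symm]
    rfl
  have h := congrArg (fun σ : Perm α => σ i) (hx _ ha)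
  simp only [Perm.mul_apply] at h
  rw [swap_apply_of_ne_of_ne hki.symm hli.symm, swap_apply_of_ne_of_ne (Ne.symm hij) hki.symm,
    ← hj, swap_apply_of_ne_of_ne hkj.symm hlj.symm, swap_apply_left] at h
  exact hkj h

/-- a nontrivial subgroup normalised by the alternating group contains it -/
theorem alt_le (h5 : 5 ≤ Nat.card α) {N : Subgroup (Perm α)}
    (hn : ∀ a ∈ alternatingGroup α, ∀ x ∈ N, a * x * a⁻¹ ∈ N) (hne : N ≠ ⊥) :
    alternatingGroup α ≤ N := by
  have := alternatingGroup.isSimpleGroup h5
  have hnorm : (N.subgroupOf (alternatingGroup α)).Normal := ⟨fun x hx a => hn a a.2 x hx⟩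
  rcases hnorm.eq_bot_or_eq_top with h | h
  · exfalso
    apply hne
    rw [Subgroup.eq_bot_iff_forall]
    intro x hx
    refine eq_one_of_centralizes_alt h5 fun a ha => ?_
    have h1 : a * x * a⁻¹ * x⁻¹ ∈ alternatingGroup α := by
      rw [Perm.mem_alternatingGroup]
      simp [mul_comm, mul_left_comm]
    have h2 : a * x * a⁻¹ * x⁻¹ ∈ N := N.mul_mem (hn a ha x hx) (N.inv_mem hx)
    have h3 : (⟨_, h1⟩ : alternatingGroup α) ∈ N.subgroupOf (alternatingGroup α) := h2
    rw [h, Subgroup.mem_bot] at h3
    have h4 := congrArg Subtype.val h3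
    simpa [mul_inv_eq_iff_eq_mul] using h4
  · exact Subgroup.subgroupOf_eq_top.mp h

theorem alt_le_of_index (H : Subgroup (Perm α)) (h : H.index ≤ 2) : alternatingGroup α ≤ H := by
  have h0 : H.index ≠ 0 := Subgroup.index_ne_zero_of_finite
  rcases (show H.index = 1 ∨ H.index = 2 by omega) with h1 | h1
  · rw [Subgroup.index_eq_one.mp h1]; exact le_top
  · rw [Perm.eq_alternatingGroup_of_index_eq_two h1]

theorem alt_noncomm (h5 : 5 ≤ Nat.card α) :
    ∃ a ∈ alternatingGroup α, ∃ b ∈ alternatingGroup α, a * b ≠ b * a := by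
  by_contra h
  push Not at h
  have h4 := alternatingGroup.center_eq_bot (α := α) (by omega)
  have : Subgroup.center (alternatingGroup α) = ⊤ := by
    rw [eq_top_iff]
    intro a _
    rw [Subgroup.mem_center_iff]
    exact fun b => Subtype.ext (h b b.2 a a.2)
  have hnt : Nontrivial (alternatingGroup α) := by
    have h2 : Nontrivial α := Finite.one_lt_card_iff_nontrivial.mp (by omega)
    have := two_mul_nat_card_alternatingGroup (α := α)
    rw [Nat.card_perm] at this
    refine Finite.one_lt_card_iff_nontrivial.mp ?_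
    have h3 : (5 : ℕ).factorial ≤ (Nat.card α).factorial := Nat.factorial_le h5
    have e : (5 : ℕ).factorial = 120 := rfl
    omega
  exact absurd (h4.symm.trans this) bot_ne_top

end

section coords

variable {G A : Type*} [Group G] [Group A]

/-- if `f` maps onto a non-solvable simple group, some coordinate kernel lies in the kernel of `f` -/
theorem exists_coord [IsSimpleGroup A] (hA : ¬ Group.IsSolvable A) {ι : Type*} [Finite ι]
    (N : ι → Subgroup G) (hN : ∀ i, (N i).Normal) (f : G →* A) (hf : Function.Surjective f)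
    (D : Subgroup G) (hD : D.Normal) [Group.IsSolvable D] (hle : ∀ g, (∀ i, g ∈ N i) → g ∈ D) :
    ∃ i, N i ≤ f.ker := by
  classical
  have key : ∀ M : Subgroup G, M.Normal → ¬ M ≤ f.ker → M.map f = ⊤ := by
    intro M hM hMk
    rcases (hM.map f hf).eq_bot_or_eq_top with h | h
    · exact absurd ((Subgroup.map_eq_bot_iff M).mp h) hMk
    · exact h
  by_contra h
  push Not at h
  have : Fintype ι := Fintype.ofFinite ι
  have main : ∀ s : Finset ι, ¬ (⨅ i ∈ s, N i) ≤ f.ker := by
    intro s
    induction s using Finset.induction_on with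
    | empty =>
      intro h'
      apply hA
      have hs : Subsingleton A := ⟨fun a b => by
        obtain ⟨x, rfl⟩ := hf a
        obtain ⟨y, rfl⟩ := hf b
        have hx : x ∈ f.ker := h' (by simp)
        have hy : y ∈ f.ker := h' (by simp)
        rw [MonoidHom.mem_ker.mp hx, MonoidHom.mem_ker.mp hy]⟩
      exact absurd hs (not_subsingleton A)
    | insert i s his ih =>
      intro h'
      rw [Finset.iInf_insert] at h'
      have hM : (⨅ j ∈ s, N j).Normal := Subgroup.normal_iInf_normal fun j =>
        Subgroup.normal_iInf_normal fun _ => hN j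
      have h1 := key _ (hN i) (h i)
      have h2 := key _ hM ih
      apply hA
      -- `[A, A] = 1`
      have hc : ∀ a b : A, a * b = b * a := by
        intro a b
        obtain ⟨x, hx, rfl⟩ := (h1 ▸ Subgroup.mem_top a : a ∈ (N i).map f)
        obtain ⟨y, hy, rfl⟩ := (h2 ▸ Subgroup.mem_top b : b ∈ (⨅ j ∈ s, N j).map f)
        have hmem : x * y * x⁻¹ * y⁻¹ ∈ N i ⊓ (⨅ j ∈ s, N j) := by
          refine ⟨?_, ?_⟩
          · rw [show x * y * x⁻¹ * y⁻¹ = x * (y * x⁻¹ * y⁻¹) by group]
            exact (N i).mul_mem hx ((hN i).conj_mem _ ((N i).inv_mem hx) y)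
          · exact (⨅ j ∈ s, N j).mul_mem (hM.conj_mem _ hy x) ((⨅ j ∈ s, N j).inv_mem hy)
        have h3 : f (x * y * x⁻¹ * y⁻¹) = 1 := h' hmem
        rwa [map_mul, map_mul, map_mul, map_inv, map_inv, mul_inv_eq_one, mul_inv_eq_iff_eq_mul]
          at h3
      exact Group.isSolvable_of_comm hc
  refine main Finset.univ fun g hg => ?_
  have hall : ∀ i, g ∈ N i := by simpa [Subgroup.mem_iInf] using hg
  have hgD := hle g hall
  by_contra hgk
  have h2 := key D hD (fun h' => hgk (h' hgD))
  apply hA
  have hs : Function.Surjective (f.comp D.subtype) := fun a => by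
    obtain ⟨x, hx, rfl⟩ := (h2 ▸ Subgroup.mem_top a : a ∈ D.map f)
    exact ⟨⟨x, hx⟩, rfl⟩
  exact Group.isSolvable_of_surjective hs

end coords

end CfsgLib.OrderDegrees.AltSuborbit
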