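import Cfsg.Agent.Lib.OrderDegrees.ThompsonWielandt.Main
import Cfsg.Agent.Lib.OrderDegrees.AltSuborbit.Groups

/-!
The homomorphisms attached to vertices and arcs of an orbital.
-/

set_option autoImplicit false
set_option linter.unusedSectionVars false

namespace CfsgLib.OrderDegrees.AltSuborbit

open MulAction CfsgLib.OrderDegrees.ThompsonWielandt

variable {G Ω : Type*} [Group G] [Finite G] [MulAction G Ω] [Finite Ω] {d : ℕ}
  (O : Orbital G Ω d)

/-- the action on the out-neighbours -/
def outHom (x : Ω) : stabilizer G x →* Equiv.Perm {y // O.R x y} :=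
  Orbital.permOn (stabilizer G x) (O.R x) fun _ hg y => O.out_iff hg y

theorem outHom_ker (x : Ω) : (outHom O x).ker = (O.K x).subgroupOf (stabilizer G x) := by
  ext g
  rw [outHom, Orbital.mem_ker_permOn, Subgroup.mem_subgroupOf, Orbital.mem_K]
  exact ⟨fun h => ⟨g.2, h⟩, fun h => h.2⟩

theorem outHom_apply {x : Ω} (g : stabilizer G x) (y : {y // O.R x y}) :
    ((outHom O x g y : {y // O.R x y}) : Ω) = (g : G) • (y : Ω) := rfl

theorem card_outHom_range (x : Ω) :
    Nat.card (outHom O x).range = (O.K x).relIndex (stabilizer G x) := by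
  rw [← Subgroup.index_ker, outHom_ker]
  rfl

/-- the stabiliser of an arc -/
abbrev dom (x y : Ω) : Subgroup G := stabilizer G x ⊓ stabilizer G y

/-- the action of an arc stabiliser on the other in-neighbours of its head -/
def arcHom (x y : Ω) : dom (G := G) x y →* Equiv.Perm {w // O.R w y ∧ w ≠ x} :=
  Orbital.permOn _ _ fun g hg w => by
    have h1 := O.smul_iff g w y
    rw [mem_stabilizer_iff.1 hg.2] at h1
    exact and_congr h1.symm (not_congr
      ⟨fun h => by rw [h]; exact mem_stabilizer_iff.1 hg.1,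
        fun h => smul_left_cancel g (h.trans (mem_stabilizer_iff.1 hg.1).symm)⟩)

theorem arcHom_apply {x y : Ω} (g : dom (G := G) x y) (w : {w // O.R w y ∧ w ≠ x}) :
    ((arcHom O x y g w : {w // O.R w y ∧ w ≠ x}) : Ω) = (g : G) • (w : Ω) := rfl

theorem arcHom_eq_one {x y : Ω} {g : dom (G := G) x y} :
    arcHom O x y g = 1 ↔ (g : G) ∈ O.flip.K y := by
  rw [← MonoidHom.mem_ker, arcHom, Orbital.mem_ker_permOn, Orbital.mem_K]
  refine ⟨fun h => ⟨g.2.2, fun w hw => ?_⟩, fun h w hw => h.2 w hw.1⟩
  rcases eq_or_ne w x with rfl | hne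
  · exact g.2.1
  · exact h w ⟨hw, hne⟩

theorem card_T {x y : Ω} (h : O.R x y) : Nat.card {w // O.R w y ∧ w ≠ x} = d - 1 := by
  classical
  haveI := Fintype.ofFinite Ω
  have h' : Nat.card {w // O.R w y ∧ w ≠ x} = Nat.card {w // O.R w y} - 1 := by
    rw [Nat.card_eq_fintype_card, Nat.card_eq_fintype_card,
      Fintype.card_subtype, Fintype.card_subtype,
      ← Finset.card_erase_of_mem (a := x) (by simp [h])]
    congr 1
    ext w
    simp [and_comm]
  rwa [O.card_in] at h'

theorem card_T_out {x y : Ω} (h : O.R x y) : Nat.card {w // O.R x w ∧ w ≠ y} = d - 1 :=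
  card_T O.flip (x := y) (y := x) h

theorem relIndex_stab {x y : Ω} (h : O.R x y) :
    (dom (G := G) x y).relIndex (stabilizer G x) = d := by
  rw [Subgroup.inf_relIndex_left, Subgroup.relIndex]
  have e : (stabilizer G y).subgroupOf (stabilizer G x) = stabilizer (stabilizer G x) y := by
    ext g; rfl
  rw [e, index_stabilizer]
  rw [← O.card_out x]
  refine (Nat.card_coe_set_eq _).symm.trans (Nat.card_congr (Equiv.subtypeEquivRight fun c => ?_))
  constructor
  · rintro ⟨g, rfl⟩
    exact (O.out_iff g.2 y).mp h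
  · intro hc
    obtain ⟨g, hg1, hg2⟩ := O.trans x y x c h hc
    exact ⟨⟨g, hg1⟩, hg2⟩

/-- the stabiliser induces at least the alternating group on the suborbit -/
def Big : Prop := ∀ x, d.factorial ≤ 2 * (O.K x).relIndex (stabilizer G x)

section perm
variable {α : Type*} [Finite α] [DecidableEq α]

theorem index_le_two_of_card {H : Subgroup (Equiv.Perm α)} {m : ℕ} (hm : Nat.card α = m)
    (h : m.factorial ≤ 2 * Nat.card H) : H.index ≤ 2 := by
  have h1 := Subgroup.card_mul_index H
  rw [Nat.card_perm, hm] at h1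
  have h2 : 0 < Nat.card H := Nat.card_pos
  nlinarith

end perm

theorem alt_le_outHom [DecidableEq Ω] [Fintype Ω] [DecidableRel O.R] (hbig : Big O) (x : Ω) :
    alternatingGroup {y // O.R x y} ≤ (outHom O x).range :=
  alt_le_of_index _ (index_le_two_of_card (O.card_out x) (by
    rw [card_outHom_range]; exact hbig x))

theorem card_arc_range {x y : Ω} (h : O.R x y) :
    d * Nat.card (arcHom O.flip y x).range = (O.K x).relIndex (stabilizer G x) := by
  have hker : (arcHom O.flip y x).ker = (O.K x).subgroupOf (dom (G := G) y x) := by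
    ext g
    rw [MonoidHom.mem_ker, arcHom_eq_one, Subgroup.mem_subgroupOf]
    exact Iff.rfl
  rw [← Subgroup.index_ker, hker]
  show d * (O.K x).relIndex (dom (G := G) y x) = _
  have e : dom (G := G) y x = dom (G := G) x y := inf_comm _ _
  have h2 : (O.K x).relIndex (dom (G := G) x y) * (dom (G := G) x y).relIndex (stabilizer G x) =
      (O.K x).relIndex (stabilizer G x) :=
    Subgroup.relIndex_mul_relIndex _ _ _ (O.K_le_inf h) inf_le_left
  rw [relIndex_stab O h] at h2
  rw [e, mul_comm]
  exact h2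

theorem two_mul_arc_range (hbig : Big O) (hd : 1 ≤ d) {x y : Ω} (h : O.R x y) :
    (d - 1).factorial ≤ 2 * Nat.card (arcHom O.flip y x).range := by
  have h1 := hbig x
  rw [← card_arc_range O h, ← Nat.mul_factorial_pred (show d ≠ 0 by omega)] at h1
  refine Nat.le_of_mul_le_mul_left ?_ (show 0 < d by omega)
  linarith [h1]

theorem alt_le_arcHom [DecidableEq Ω] [Fintype Ω] [DecidableRel O.flip.R] (hbig : Big O)
    (hd : 1 ≤ d) {x y : Ω} (h : O.R x y) :
    alternatingGroup {w // O.flip.R w x ∧ w ≠ y} ≤ (arcHom O.flip y x).range :=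
  alt_le_of_index _ (index_le_two_of_card (card_T O.flip (x := y) (y := x) h)
    (two_mul_arc_range O hbig hd h))

end CfsgLib.OrderDegrees.AltSuborbit
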