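import Cfsg.Agent.Lib.OrderDegrees.AltSuborbit.Kernels

/-!
Two adjacent kernels meet trivially.
-/

set_option autoImplicit false
set_option linter.unusedSectionVars false

namespace CfsgLib.OrderDegrees.AltSuborbit

open MulAction CfsgLib.OrderDegrees.ThompsonWielandt
open scoped commutatorElement

theorem exists_apply_eq {α : Type*} [Fintype α] [DecidableEq α] (h3 : 3 ≤ Nat.card α)
    {H : Subgroup (Equiv.Perm α)} (hA : alternatingGroup α ≤ H) (i j : α) :
    ∃ σ ∈ H, σ i = j := by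
  rcases eq_or_ne i j with rfl | hij
  · exact ⟨1, H.one_mem, rfl⟩
  obtain ⟨k, hki, hkj⟩ : ∃ k, k ≠ i ∧ k ≠ j := by
    by_contra h
    push Not at h
    have : (Finset.univ : Finset α) ⊆ {i, j} := fun k _ => by
      simp only [Finset.mem_insert, Finset.mem_singleton]
      exact (em (k = i)).imp_right (fun hki => h k hki)
    have h2 := Finset.card_le_card this
    rw [Finset.card_univ, ← Nat.card_eq_fintype_card] at h2
    have := Finset.card_le_two (a := i) (b := j)
    omega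
  refine ⟨Equiv.swap j k * Equiv.swap i k, hA ?_, ?_⟩
  · rw [Equiv.Perm.mem_alternatingGroup, map_mul, Equiv.Perm.sign_swap hkj.symm,
      Equiv.Perm.sign_swap hki.symm]
    rfl
  · rw [Equiv.Perm.mul_apply, Equiv.swap_apply_left, Equiv.swap_apply_right]

variable {G Ω : Type*} [Group G] [MulAction G Ω] {d : ℕ} (O : Orbital G Ω d)

/-- the meet of two kernels -/
abbrev meetK (x y : Ω) : Subgroup G := O.K x ⊓ O.K y

theorem map_meetK (g : G) (x y : Ω) :
    (meetK O x y).map (MulAut.conj g).toMonoidHom = meetK O (g • x) (g • y) := by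
  rw [meetK, Subgroup.map_inf _ _ _ (MulAut.conj g).injective, O.map_K, O.map_K]

theorem map_derived (g : G) (x y : Ω) :
    (⁅meetK O x y, meetK O x y⁆).map (MulAut.conj g).toMonoidHom =
      ⁅meetK O (g • x) (g • y), meetK O (g • x) (g • y)⁆ := by
  rw [Subgroup.map_commutator, map_meetK]

theorem derived_le (x y : Ω) : ⁅meetK O x y, meetK O x y⁆ ≤ meetK O x y :=
  Subgroup.commutator_le.mpr fun u hu v hv => by
    rw [commutatorElement_def]
    exact mul_mem (mul_mem (mul_mem hu hv) (inv_mem hu)) (inv_mem hv)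

theorem conj_meetK {g k : G} {x y : Ω} (hx : g • x = x) (hy : g • y = y)
    (hk : k ∈ meetK O x y) : g * k * g⁻¹ ∈ meetK O x y := by
  have := Subgroup.mem_map_of_mem (MulAut.conj g).toMonoidHom hk
  rw [map_meetK, hx, hy] at this
  exact this

theorem conj_derived {g k : G} {x y : Ω} (hx : g • x = x) (hy : g • y = y)
    (hk : k ∈ ⁅meetK O x y, meetK O x y⁆) : g * k * g⁻¹ ∈ ⁅meetK O x y, meetK O x y⁆ := by
  have := Subgroup.mem_map_of_mem (MulAut.conj g).toMonoidHom hk
  rw [map_derived, hx, hy] at this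
  exact this

variable [Finite G] [Finite Ω]

theorem card_K_eq [IsPretransitive G Ω] (x y : Ω) : Nat.card (O.K y) = Nat.card (O.K x) := by
  obtain ⟨g, rfl⟩ := exists_smul_eq G x y
  rw [← O.map_K]
  exact Subgroup.card_map_of_injective (MulAut.conj g).injective

/-- the action of a subgroup of an arc stabiliser -/
def arcRes {x y : Ω} (H : Subgroup G) (hH : H ≤ dom x y) :
    H →* Equiv.Perm {w // O.R w y ∧ w ≠ x} :=
  (arcHom O x y).comp (Subgroup.inclusion hH)

theorem arcRes_ker {x y : Ω} (H : Subgroup G) (hH : H ≤ dom x y) :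
    (arcRes O H hH).ker = (O.flip.K y).subgroupOf H := by
  ext g
  rw [MonoidHom.mem_ker, Subgroup.mem_subgroupOf, arcRes, MonoidHom.comp_apply, arcHom_eq_one]
  rfl

theorem arcRes_conj {x y : Ω} {H : Subgroup G} (hH : H ≤ dom x y) (g : dom (G := G) x y) (k : H)
    (hm : (g : G) * (k : G) * (g : G)⁻¹ ∈ H) :
    arcRes O H hH ⟨_, hm⟩ = arcHom O x y g * arcRes O H hH k * (arcHom O x y g)⁻¹ := by
  simp only [arcRes, MonoidHom.comp_apply, ← map_inv, ← map_mul]
  rfl

theorem derived_mem_alt [Fintype Ω] [DecidableEq Ω] [DecidableRel O.R] {x y : Ω}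
    (Y : Subgroup G) (hY : Y ≤ dom x y) {H : Subgroup G} (hHY : H ≤ ⁅Y, Y⁆) (hH : H ≤ dom x y)
    (g : H) : arcRes O H hH g ∈ alternatingGroup {w // O.R w y ∧ w ≠ x} := by
  have h : ⁅Y, Y⁆ ≤ ((alternatingGroup {w // O.R w y ∧ w ≠ x}).comap (arcHom O x y)).map
      (dom (G := G) x y).subtype := by
    refine Subgroup.commutator_le.mpr fun u hu v hv => ?_
    refine ⟨⁅(⟨u, hY hu⟩ : dom (G := G) x y), ⟨v, hY hv⟩⁆, ?_, rfl⟩
    rw [SetLike.mem_coe, Subgroup.mem_comap, Equiv.Perm.mem_alternatingGroup, map_commutatorElement,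
      map_commutatorElement, commutatorElement_eq_one_iff_mul_comm]
    exact mul_comm _ _
  obtain ⟨u, hu, hug⟩ := h (hHY g.2)
  have : u = Subgroup.inclusion hH g := Subtype.ext hug
  rw [this] at hu
  exact hu

theorem two_mul_relIndex_le [Fintype Ω] [DecidableEq Ω] [DecidableRel O.R] {x y : Ω}
    (hxy : O.R x y) (h3 : 3 ≤ d) (H : Subgroup G) (hH : H ≤ dom x y)
    (halt : ∀ g, arcRes O H hH g ∈ alternatingGroup {w // O.R w y ∧ w ≠ x}) :
    2 * (O.flip.K y).relIndex H ≤ (d - 1).factorial := by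
  have : Nontrivial {w // O.R w y ∧ w ≠ x} :=
    Finite.one_lt_card_iff_nontrivial.mp (by rw [card_T O hxy]; omega)
  have h := two_mul_nat_card_alternatingGroup (α := {w // O.R w y ∧ w ≠ x})
  rw [Nat.card_perm, card_T O hxy] at h
  rw [← h, Subgroup.relIndex, ← arcRes_ker O H hH, Subgroup.index_ker]
  refine Nat.mul_le_mul_left 2 (Subgroup.card_le_of_le ?_)
  rintro _ ⟨g, rfl⟩
  exact halt g

variable [FaithfulSMul G Ω] [IsPreprimitive G Ω] [Nontrivial Ω]

/-- the standing hypotheses -/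
structure Hyp : Prop where
  big : Big O
  le6 : 6 ≤ d
  eqK : ∀ x, O.flip.K x = O.K x
  neK : ∀ x, O.K x ≠ ⊥

variable {O}

theorem Hyp.symm (h : Hyp O) : Hyp O.flip where
  big := big_flip O h.big (by have := h.le6; omega)
  le6 := h.le6
  eqK x := (h.eqK x).symm
  neK x := h.eqK x ▸ h.neK x

theorem Hyp.K_le_stab_in (h : Hyp O) {x y : Ω} (hxy : O.R x y) : O.K y ≤ stabilizer G x :=
  h.eqK y ▸ O.flipK_le_stab_in hxy

theorem Hyp.alt_le_image_K (h : Hyp O) [Fintype Ω] [DecidableEq Ω] [DecidableRel O.R] {a b : Ω}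
    (hab : O.R a b) :
    alternatingGroup {w // O.R w b ∧ w ≠ a} ≤ (arcRes O (O.K a) (O.K_le_inf hab)).range := by
  have h6 := h.le6
  letI : DecidableRel O.flip.flip.R := ‹DecidableRel O.R›
  refine alt_le (by rw [card_T O hab]; omega) ?_ ?_
  · intro p hp x hx
    obtain ⟨g, rfl⟩ := alt_le_arcHom O.flip h.symm.big (by omega) (x := b) (y := a) hab hp
    obtain ⟨k, rfl⟩ := hx
    exact ⟨⟨_, conj_mem (O.stab_le_normalizer_K a g.2.1) k.2⟩, arcRes_conj O _ g k _⟩
  · rw [Ne, MonoidHom.range_eq_bot_iff, ← MonoidHom.ker_eq_top_iff, arcRes_ker,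
      Subgroup.subgroupOf_eq_top, h.eqK]
    intro hle
    have he : O.K a = O.K b := Subgroup.eq_of_le_of_card_ge hle (card_K_eq O a b).le
    exact O.irrefl a ((eq_of_normal (h.neK a) (O.K_le_stab a) (O.stab_le_normalizer_K a)
      (he ▸ O.K_le_stab b) (he ▸ O.stab_le_normalizer_K b)) ▸ hab)

theorem Hyp.exists_mem_K_smul (h : Hyp O) {a b c e : Ω} (hab : O.R a b) (hac : O.R a c)
    (hcb : c ≠ b) (hae : O.R a e) (heb : e ≠ b) : ∃ k ∈ O.K b, k • c = e := by
  classical
  haveI := Fintype.ofFinite Ω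
  have hA := h.symm.alt_le_image_K (a := b) (b := a) hab
  have h6 := h.le6
  obtain ⟨σ, ⟨k, rfl⟩, hk⟩ := exists_apply_eq (by rw [card_T O.flip (x := b) (y := a) hab]; omega :
    3 ≤ Nat.card {w // O.flip.R w a ∧ w ≠ b}) hA ⟨c, hac, hcb⟩ ⟨e, hae, heb⟩
  exact ⟨k, h.eqK b ▸ k.2, congrArg Subtype.val hk⟩

theorem Hyp.meetK_le_all (h : Hyp O) {a b c e : Ω} (hab : O.R a b) (hac : O.R a c) (hcb : c ≠ b)
    (hle : meetK O a b ≤ O.K c) (hae : O.R a e) : meetK O a b ≤ O.K e := by
  rcases eq_or_ne e b with rfl | heb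
  · exact inf_le_right
  obtain ⟨k, hk, rfl⟩ := h.exists_mem_K_smul hab hac hcb hae heb
  have := Subgroup.map_mono (f := (MulAut.conj k).toMonoidHom) hle
  rwa [map_meetK, O.map_K, mem_stabilizer_iff.1 (h.K_le_stab_in hab hk),
    mem_stabilizer_iff.1 (O.K_le_stab b hk)] at this

theorem Hyp.meetK_eq_of_le (h : Hyp O) {a b c : Ω} (hab : O.R a b) (hac : O.R a c)
    (hle : meetK O a b ≤ O.K c) : meetK O a b = meetK O a c := by
  obtain ⟨g, hga, hgb⟩ := O.trans a b a c hab hac
  refine Subgroup.eq_of_le_of_card_ge (le_inf inf_le_left hle) (le_of_eq ?_)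
  have e := map_meetK O g a b
  rw [hga, hgb] at e
  rw [← e]
  exact Subgroup.card_map_of_injective (MulAut.conj g).injective

theorem Hyp.derived_surj (h : Hyp O) [Fintype Ω] [DecidableEq Ω] [DecidableRel O.R] {a b e : Ω}
    (hab : O.R a b) (hae : O.R a e) (hnle : ¬ meetK O a b ≤ O.K e) :
    alternatingGroup {w // O.R w e ∧ w ≠ a} ≤
      (arcRes O ⁅meetK O a b, meetK O a b⁆
        ((derived_le O a b).trans (inf_le_left.trans (O.K_le_inf hae)))).range := by
  classical
  have h6 := h.le6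
  have h5 : 5 ≤ Nat.card {w // O.R w e ∧ w ≠ a} := by rw [card_T O hae]; omega
  have hfix : ∀ k ∈ O.K a, k • a = a ∧ k • b = b := fun k hk =>
    ⟨O.K_le_stab a hk, O.K_le_stab_out hab hk⟩
  have hY : alternatingGroup {w // O.R w e ∧ w ≠ a} ≤
      (arcRes O (meetK O a b) (inf_le_left.trans (O.K_le_inf hae))).range := by
    refine alt_le h5 ?_ ?_
    · intro p hp x hx
      obtain ⟨g, rfl⟩ := h.alt_le_image_K hae hp
      obtain ⟨k, rfl⟩ := hx
      exact ⟨⟨_, conj_meetK O (hfix _ g.2).1 (hfix _ g.2).2 k.2⟩,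
        arcRes_conj O _ (Subgroup.inclusion (O.K_le_inf hae) g) k _⟩
    · rw [Ne, MonoidHom.range_eq_bot_iff, ← MonoidHom.ker_eq_top_iff, arcRes_ker,
        Subgroup.subgroupOf_eq_top, h.eqK]
      exact hnle
  refine alt_le h5 ?_ ?_
  · intro p hp x hx
    obtain ⟨g, rfl⟩ := h.alt_le_image_K hae hp
    obtain ⟨k, rfl⟩ := hx
    exact ⟨⟨_, conj_derived O (hfix _ g.2).1 (hfix _ g.2).2 k.2⟩,
      arcRes_conj O _ (Subgroup.inclusion (O.K_le_inf hae) g) k _⟩
  · obtain ⟨p, hp, q, hq, hpq⟩ := alt_noncomm h5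
    obtain ⟨u, rfl⟩ := hY hp
    obtain ⟨v, rfl⟩ := hY hq
    intro hbot
    apply hpq
    rw [← commutatorElement_eq_one_iff_mul_comm, ← Subgroup.mem_bot, ← hbot]
    refine ⟨⟨⁅(u : G), (v : G)⁆, Subgroup.commutator_mem_commutator u.2 v.2⟩, ?_⟩
    rw [← map_commutatorElement]
    rfl

theorem eq_inf_of_index {H A B : Subgroup G} (hle : H ⊓ A ≤ B)
    (hi : A.relIndex H ≤ B.relIndex H) : H ⊓ A = H ⊓ B := by
  have h1 : A.subgroupOf H ≤ B.subgroupOf H := fun g hg => hle ⟨g.2, hg⟩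
  have h2 : A.subgroupOf H = B.subgroupOf H := by
    rcases h1.eq_or_lt with h | h
    · exact h
    · have := Subgroup.index_strictAnti h
      simp only [Subgroup.relIndex] at hi
      omega
  ext g
  refine ⟨fun hg => ⟨hg.1, hle hg⟩, fun hg => ⟨hg.1, ?_⟩⟩
  exact (SetLike.ext_iff.mp h2 ⟨g, hg.1⟩).mpr hg.2

theorem Hyp.exists_nbr (h : Hyp O) {a b c : Ω} (hab : O.R a b) (hac : O.R a c)
    (hnle : ¬ meetK O a b ≤ O.K c) :
    ∃ w, O.K b ≤ stabilizer G w ∧ ⁅meetK O a b, meetK O a b⁆ ⊓ O.K w =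
      ⁅meetK O a b, meetK O a b⁆ ⊓ O.K c := by
  classical
  haveI := Fintype.ofFinite Ω
  have h6 := h.le6
  set R := ⁅meetK O a b, meetK O a b⁆ with hR
  have hRY : R ≤ meetK O a b := derived_le O a b
  have hRac : R ≤ dom a c := hRY.trans (inf_le_left.trans (O.K_le_inf hac))
  have hRb : R ≤ O.K b := hRY.trans inf_le_right
  have halt := derived_mem_alt O (meetK O a b) (inf_le_left.trans (O.K_le_inf hac)) le_rfl hRac
  have hT : 5 ≤ Nat.card {w // O.R w c ∧ w ≠ a} := by rw [card_T O hac]; omega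
  have hsimple := alternatingGroup.isSimpleGroup hT
  let f : R →* alternatingGroup {w // O.R w c ∧ w ≠ a} :=
    (arcRes O R hRac).codRestrict _ halt
  have hf : Function.Surjective f := by
    rintro ⟨p, hp⟩
    obtain ⟨r, hr⟩ := h.derived_surj hab hac hnle hp
    exact ⟨r, Subtype.ext hr⟩
  have hfker : ∀ r : R, r ∈ f.ker ↔ (r : G) ∈ O.K c := fun r => by
    rw [MonoidHom.mem_ker, Subtype.ext_iff]
    show arcRes O R hRac r = 1 ↔ _
    rw [← MonoidHom.mem_ker, arcRes_ker, Subgroup.mem_subgroupOf, h.eqK]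
  have hindex : (d - 1).factorial ≤ 2 * (O.K c).relIndex R := by
    have he : f.ker = (O.K c).subgroupOf R := SetLike.ext fun r => by
      rw [hfker, Subgroup.mem_subgroupOf]
    have : Nontrivial {w // O.R w c ∧ w ≠ a} := Finite.one_lt_card_iff_nontrivial.mp (by omega)
    rw [Subgroup.relIndex, ← he, Subgroup.index_ker, MonoidHom.range_eq_top.mpr hf,
      Subgroup.card_top, two_mul_nat_card_alternatingGroup, Nat.card_perm, card_T O hac]
  have key : ∀ w, R ⊓ O.K w ≤ O.K c → 2 * (O.K w).relIndex R ≤ (d - 1).factorial →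
      R ⊓ O.K w = R ⊓ O.K c := fun w h1 h2 => eq_inf_of_index h1 (by omega)
  obtain ⟨p, hp, hX | hX⟩ := exists_pgroup O (by omega) b
  · -- vertices dominated by `b`
    have hdom : ∀ {w}, O.R b w → R ≤ dom b w := fun hw => hRb.trans (O.K_le_inf hw)
    have hD : ((O.X b).comap R.subtype).Normal := ⟨fun u hu g =>
      show (g : G) * (u : G) * (g : G)⁻¹ ∈ O.X b from
        conj_mem (O.stab_le_normalizer_X b (O.K_le_stab b (hRb g.2))) hu⟩
    haveI := isSolvable_of_isPGroup hp (hX.comap_of_injective R.subtype Subtype.val_injective)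
    obtain ⟨w, hw⟩ := exists_coord (alt_not_solvable hT)
      (fun w : {w // O.R b w} => (arcRes O R (hdom w.2)).ker) (fun w => MonoidHom.normal_ker _)
      f hf _ hD fun g hg => O.mem_X.mpr ⟨hRb g.2, fun w hw => by
        have := hg ⟨w, hw⟩
        rwa [arcRes_ker] at this⟩
    refine ⟨w, O.K_le_stab_out w.2, key w (fun g hg => ?_) ?_⟩
    · have h1 := hw (x := (⟨g, hg.1⟩ : R)) (by
        rw [arcRes_ker, Subgroup.mem_subgroupOf, h.eqK]; exact hg.2)
      exact (hfker _).mp h1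
    · rw [← h.eqK]
      exact two_mul_relIndex_le O w.2 (by omega) R (hdom w.2)
        (derived_mem_alt O (meetK O a b) (inf_le_right.trans (O.K_le_inf w.2)) le_rfl (hdom w.2))
  · -- vertices dominating `b`
    have hRb' : R ≤ O.flip.K b := (h.eqK b).symm ▸ hRb
    have hdom : ∀ {w}, O.R w b → R ≤ dom b w := fun hw => hRb'.trans (O.flip.K_le_inf hw)
    have hD : ((O.flip.X b).comap R.subtype).Normal := ⟨fun u hu g =>
      show (g : G) * (u : G) * (g : G)⁻¹ ∈ O.flip.X b from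
        conj_mem (O.flip.stab_le_normalizer_X b (O.K_le_stab b (hRb g.2))) hu⟩
    haveI := isSolvable_of_isPGroup hp (hX.comap_of_injective R.subtype Subtype.val_injective)
    obtain ⟨w, hw⟩ := exists_coord (alt_not_solvable hT)
      (fun w : {w // O.R w b} => (arcRes O.flip R (hdom w.2)).ker)
      (fun w => MonoidHom.normal_ker _)
      f hf _ hD fun g hg => O.flip.mem_X.mpr ⟨hRb' g.2, fun w hw => by
        have := hg ⟨w, hw⟩
        rwa [arcRes_ker] at this⟩
    refine ⟨w, h.K_le_stab_in w.2, key w (fun g hg => ?_) ?_⟩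
    · have h1 := hw (x := (⟨g, hg.1⟩ : R)) (by
        rw [arcRes_ker, Subgroup.mem_subgroupOf]; exact hg.2)
      exact (hfker _).mp h1
    · exact two_mul_relIndex_le O.flip (x := b) (y := (w : Ω)) w.2 (by omega) R (hdom w.2)
        (derived_mem_alt O.flip (meetK O a b)
          ((inf_le_right.trans (le_of_eq (h.eqK b).symm)).trans (O.flip.K_le_inf w.2)) le_rfl
          (hdom w.2))

theorem Hyp.derived_inf_le (h : Hyp O) {a b c e : Ω} (hab : O.R a b) (hac : O.R a c) (hcb : c ≠ b)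
    (hnle : ¬ meetK O a b ≤ O.K c) (hae : O.R a e) (heb : e ≠ b) :
    ⁅meetK O a b, meetK O a b⁆ ⊓ O.K c ≤ O.K e := by
  obtain ⟨w, hw, hwc⟩ := h.exists_nbr hab hac hnle
  obtain ⟨k, hk, rfl⟩ := h.exists_mem_K_smul hab hac hcb hae heb
  have h2 := congrArg (Subgroup.map (MulAut.conj k).toMonoidHom) hwc
  rw [Subgroup.map_inf _ _ _ (MulAut.conj k).injective,
    Subgroup.map_inf _ _ _ (MulAut.conj k).injective, map_derived, O.map_K, O.map_K,
    mem_stabilizer_iff.1 (h.K_le_stab_in hab hk), mem_stabilizer_iff.1 (O.K_le_stab b hk),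
    mem_stabilizer_iff.1 (hw hk), hwc] at h2
  exact h2.le.trans inf_le_right

theorem Hyp.meetK_eq (h : Hyp O) {a b c : Ω} (hab : O.R a b) (hac : O.R a c) :
    meetK O a b = meetK O a c := by
  classical
  haveI := Fintype.ofFinite Ω
  rcases eq_or_ne c b with rfl | hcb
  · rfl
  refine h.meetK_eq_of_le hab hac ?_
  by_contra hnle
  have h6 := h.le6
  obtain ⟨e, hae, heb, hec⟩ : ∃ e, O.R a e ∧ e ≠ b ∧ e ≠ c := by
    by_contra hh
    push Not at hh
    have : (Finset.univ.filter fun e => O.R a e) ⊆ {b, c} := fun e he => by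
      simp only [Finset.mem_insert, Finset.mem_singleton]
      exact (em (e = b)).imp_right (fun heb => hh e (Finset.mem_filter.mp he).2 heb)
    have h2 := Finset.card_le_card this
    rw [← Fintype.card_subtype, ← Nat.card_eq_fintype_card, O.card_out] at h2
    have := Finset.card_le_two (a := b) (b := c)
    omega
  have h1 : ¬ meetK O a b ≤ O.K e := fun hle => hnle (h.meetK_le_all hab hae heb hle hac)
  have h2 : ¬ meetK O a c ≤ O.K e := fun hle => by
    have h3 := h.meetK_eq_of_le hac hab (h.meetK_le_all hac hae hec hle hab)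
    exact hnle (h3 ▸ inf_le_right)
  obtain ⟨p, hp, q, hq, hpq⟩ :=
    alt_noncomm (α := {w // O.R w e ∧ w ≠ a}) (by rw [card_T O hae]; omega)
  obtain ⟨u, rfl⟩ := h.derived_surj hab hae h1 hp
  obtain ⟨v, rfl⟩ := h.derived_surj hac hae h2 hq
  have hua : (u : G) ∈ O.K a := (derived_le O a b u.2).1
  have hva : (v : G) ∈ O.K a := (derived_le O a c v.2).1
  have hvc : (v : G) ∈ O.K c := (derived_le O a c v.2).2
  have hcom : ⁅(u : G), (v : G)⁆ ∈ ⁅meetK O a b, meetK O a b⁆ ⊓ O.K c := by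
    rw [commutatorElement_def]
    refine ⟨?_, ?_⟩
    · rw [show (u : G) * v * (u : G)⁻¹ * (v : G)⁻¹ = u * (v * (u : G)⁻¹ * (v : G)⁻¹) by group]
      exact (⁅meetK O a b, meetK O a b⁆).mul_mem u.2 (conj_derived O (O.K_le_stab a hva) (O.K_le_stab_out hab hva)
        ((⁅meetK O a b, meetK O a b⁆).inv_mem u.2))
    · exact (O.K c).mul_mem (conj_mem (O.stab_le_normalizer_K c (O.K_le_stab_out hac hua)) hvc)
        ((O.K c).inv_mem hvc)
  have he := h.derived_inf_le hab hac hcb hnle hae heb hcom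
  apply hpq
  rw [← commutatorElement_eq_one_iff_mul_comm]
  show ⁅arcHom O a e _, arcHom O a e _⁆ = 1
  rw [← map_commutatorElement, arcHom_eq_one, h.eqK]
  exact he

theorem Hyp.meetK_bot (h : Hyp O) {a b : Ω} (hab : O.R a b) : O.K a ⊓ O.K b = ⊥ := by
  by_contra hne
  have ha : stabilizer G a ≤ Subgroup.normalizer (meetK O a b : Set G) :=
    Orbital.le_normalizer_of_map_eq fun g hg => by
      rw [map_meetK, mem_stabilizer_iff.1 hg]
      exact h.meetK_eq ((O.out_iff hg b).mp hab) hab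
  have hb : stabilizer G b ≤ Subgroup.normalizer (meetK O a b : Set G) :=
    Orbital.le_normalizer_of_map_eq fun g hg => by
      rw [map_meetK, mem_stabilizer_iff.1 hg]
      have e : O.R (g • a) b := (O.flip.out_iff hg a).mp hab
      have := h.symm.meetK_eq (a := b) (b := g • a) (c := a) e hab
      rw [meetK, meetK, h.eqK, h.eqK, h.eqK] at this
      rw [meetK, meetK, inf_comm, this, inf_comm]
  have := eq_of_normal hne (inf_le_left.trans (O.K_le_stab a)) ha
    (inf_le_right.trans (O.K_le_stab b)) hb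
  exact O.irrefl a (this ▸ hab)

end CfsgLib.OrderDegrees.AltSuborbit
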