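import Cfsg.Agent.Lib.OrderDegrees.AltSuborbit.Homs

/-!
The kernel on the out-neighbours is the kernel on the in-neighbours.
-/

set_option autoImplicit false
set_option linter.unusedSectionVars false

namespace CfsgLib.OrderDegrees.AltSuborbit

open MulAction CfsgLib.OrderDegrees.ThompsonWielandt

/-- if the kernel of `φ` lies in the kernel of the surjection `f`, the target of `φ` is at least as large -/
theorem card_le_of_ker_le {H A P : Type*} [Group H] [Group A] [Group P] [Finite H] [Finite P]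
    (f : H →* A) (hf : Function.Surjective f) (φ : H →* P) (h : φ.ker ≤ f.ker) :
    Nat.card A ≤ Nat.card P := by
  have h1 : f.ker.index = Nat.card A := by
    rw [Subgroup.index_ker, MonoidHom.range_eq_top.mpr hf, Subgroup.card_top]
  have h2 : f.ker.index ∣ φ.ker.index := Subgroup.index_dvd_of_le h
  rw [← h1]
  refine (Nat.le_of_dvd (Nat.pos_of_ne_zero Subgroup.index_ne_zero_of_finite) h2).trans ?_
  rw [Subgroup.index_ker]
  exact Subgroup.card_le_card_group _

theorem alt_not_solvable {α : Type*} [Fintype α] [DecidableEq α] (h5 : 5 ≤ Nat.card α) :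
    ¬ Group.IsSolvable (alternatingGroup α) := by
  intro h
  have := alternatingGroup.isSimpleGroup h5
  obtain ⟨a, ha, b, hb, hab⟩ := alt_noncomm h5
  exact hab (congrArg Subtype.val
    (IsSimpleGroup.comm_iff_isSolvable.mpr h (⟨a, ha⟩ : alternatingGroup α) ⟨b, hb⟩))

theorem isSolvable_of_isPGroup {p : ℕ} (hp : p.Prime) {H : Type*} [Group H] [Finite H]
    (h : IsPGroup p H) : Group.IsSolvable H := by
  have := Fact.mk hp
  have := h.isNilpotent
  infer_instance

variable {G Ω : Type*} [Group G] [Finite G] [MulAction G Ω] [Finite Ω] [FaithfulSMul G Ω]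
  [IsPreprimitive G Ω] [Nontrivial Ω] {d : ℕ} (O : Orbital G Ω d)

theorem exists_pgroup (hd : 2 ≤ d) (x : Ω) :
    ∃ p : ℕ, p.Prime ∧ (IsPGroup p (O.X x) ∨ IsPGroup p (O.flip.X x)) := by
  obtain ⟨⟨c, hc⟩⟩ := (Nat.card_pos_iff.mp (by rw [O.card_out x]; omega :
    0 < Nat.card {y // O.R x y})).1
  obtain ⟨p, hp, h⟩ := O.exists_isPGroup hd hc
  exact ⟨p, hp, h.imp id (O.flip.isPGroup_X_iff c x)⟩

theorem flipK_le_K (hbig : Big O) (h5 : 5 ≤ d) (a : Ω) : O.flip.K a ≤ O.K a := by
  classical
  haveI := Fintype.ofFinite Ω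
  by_contra hcon
  set N := (O.flip.K a).subgroupOf (stabilizer G a) with hNdef
  have hA := alt_le_outHom O hbig a
  have hcard : Nat.card {y // O.R a y} = d := O.card_out a
  have hne : N.map (outHom O a) ≠ ⊥ := by
    rw [Ne, Subgroup.map_eq_bot_iff, outHom_ker]
    intro h
    exact hcon fun g hg => h (x := (⟨g, O.flip.K_le_stab a hg⟩ : stabilizer G a)) hg
  have hAN : alternatingGroup {y // O.R a y} ≤ N.map (outHom O a) := by
    refine alt_le (by omega) ?_ hne
    intro p hp x hx
    obtain ⟨g, rfl⟩ := hA hp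
    obtain ⟨k, hk, rfl⟩ := hx
    refine ⟨g * k * g⁻¹, ?_, by simp⟩
    exact (show (g : G) * (k : G) * (g : G)⁻¹ ∈ O.flip.K a from
      conj_mem (O.flip.stab_le_normalizer_K a g.2) hk)
  set M : Subgroup (stabilizer G a) :=
    N ⊓ (alternatingGroup {y // O.R a y}).comap (outHom O a) with hM
  let f : M →* alternatingGroup {y // O.R a y} :=
    ((outHom O a).comp M.subtype).codRestrict _ fun m => m.2.2
  have hf : Function.Surjective f := by
    rintro ⟨p, hp⟩
    obtain ⟨k, hk, hkp⟩ := hAN hp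
    refine ⟨⟨k, hk, ?_⟩, Subtype.ext hkp⟩
    show outHom O a k ∈ alternatingGroup {y // O.R a y}
    rw [hkp]
    exact hp
  have hbigA : (d - 1).factorial < Nat.card (alternatingGroup {y // O.R a y}) := by
    have : Nontrivial {y // O.R a y} := Finite.one_lt_card_iff_nontrivial.mp (by omega)
    have h := two_mul_nat_card_alternatingGroup (α := {y // O.R a y})
    rw [Nat.card_perm, hcard, ← Nat.mul_factorial_pred (show d ≠ 0 by omega)] at h
    have := Nat.factorial_pos (d - 1)
    nlinarith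
  have hsimple := alternatingGroup.isSimpleGroup (α := {y // O.R a y}) (by omega)
  have hns := alt_not_solvable (α := {y // O.R a y}) (by omega)
  have hmem : ∀ m : M, ∀ z, O.R z a → ((m : stabilizer G a) : G) ∈ dom (G := G) a z :=
    fun m z hz => ⟨(m : stabilizer G a).2, O.flipK_le_stab_in hz m.2.1⟩
  let φ : ∀ z : {z // O.R z a}, M →* Equiv.Perm {w // O.flip.R w (z : Ω) ∧ w ≠ a} := fun z =>
    (arcHom O.flip a z).comp
      (MonoidHom.mk' (fun m => (⟨_, hmem m z z.2⟩ : dom (G := G) a (z : Ω))) fun _ _ => rfl)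
  have hφ : ∀ z m, φ z m = 1 ↔ ((m : stabilizer G a) : G) ∈ O.K (z : Ω) := fun z m =>
    arcHom_eq_one O.flip
  have hφcard : ∀ z : {z // O.R z a},
      Nat.card (Equiv.Perm {w // O.flip.R w (z : Ω) ∧ w ≠ a}) = (d - 1).factorial := fun z => by
    rw [Nat.card_perm, card_T O.flip (x := a) (y := (z : Ω)) z.2]
  obtain ⟨p, hp, hX | hX⟩ := exists_pgroup O (by omega) a
  · -- kernels of the vertices dominating `a`
    obtain ⟨⟨z, hz⟩⟩ := (Nat.card_pos_iff.mp (by rw [O.card_in a]; omega :
      0 < Nat.card {z // O.R z a})).1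
    by_cases hker : (φ ⟨z, hz⟩).ker ≤ f.ker
    · have := card_le_of_ker_le f hf _ hker
      rw [hφcard] at this
      omega
    · have hNf : Function.Surjective (f.comp (φ ⟨z, hz⟩).ker.subtype) := by
        rcases ((MonoidHom.normal_ker (φ ⟨z, hz⟩)).map f hf).eq_bot_or_eq_top with h | h
        · exact absurd ((Subgroup.map_eq_bot_iff _).mp h) hker
        · intro q
          obtain ⟨m, hm, rfl⟩ := (h ▸ Subgroup.mem_top q : q ∈ (φ ⟨z, hz⟩).ker.map f)
          exact ⟨⟨m, hm⟩, rfl⟩
      let ι : (φ ⟨z, hz⟩).ker →* G :=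
        ((stabilizer G a).subtype.comp M.subtype).comp (φ ⟨z, hz⟩).ker.subtype
      have hι : Function.Injective ι := fun u v h => Subtype.ext (Subtype.ext (Subtype.ext h))
      have hιK : ∀ n, ι n ∈ O.K z := fun n => (hφ ⟨z, hz⟩ _).mp n.2
      let ψ : ∀ c : {c // O.R z c},
          (φ ⟨z, hz⟩).ker →* Equiv.Perm {w // O.R w (c : Ω) ∧ w ≠ z} := fun c =>
        (arcHom O z c).comp
          (MonoidHom.mk' (fun n => (⟨ι n, O.K_le_inf c.2 (hιK n)⟩ : dom (G := G) z (c : Ω)))
            fun _ _ => rfl)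
      have hXz : IsPGroup p ((O.X z).comap ι) :=
        (O.isPGroup_X_iff a z hX).comap_of_injective ι hι
      have hD : ((O.X z).comap ι).Normal := ⟨fun u hu g => by
        show ι (g * u * g⁻¹) ∈ O.X z
        rw [map_mul, map_mul, map_inv]
        exact conj_mem (O.stab_le_normalizer_X z (O.K_le_stab z (hιK g))) hu⟩
      haveI := isSolvable_of_isPGroup hp hXz
      obtain ⟨c, hc⟩ := exists_coord hns (fun c => (ψ c).ker) (fun c => MonoidHom.normal_ker _)
        (f.comp (φ ⟨z, hz⟩).ker.subtype) hNf _ hD fun n hn =>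
          (O.mem_X).mpr ⟨hιK n, fun c hc => (arcHom_eq_one O).mp (hn ⟨c, hc⟩)⟩
      have := card_le_of_ker_le _ hNf _ hc
      rw [Nat.card_perm, card_T O c.2] at this
      omega
  · let ι : M →* G := (stabilizer G a).subtype.comp M.subtype
    have hι : Function.Injective ι := fun u v h => Subtype.ext (Subtype.ext h)
    have hD : ((O.flip.X a).comap ι).Normal := ⟨fun u hu g => by
      show ι (g * u * g⁻¹) ∈ O.flip.X a
      rw [map_mul, map_mul, map_inv]
      exact conj_mem (O.flip.stab_le_normalizer_X a (g : stabilizer G a).2) hu⟩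
    haveI := isSolvable_of_isPGroup hp (hX.comap_of_injective ι hι)
    obtain ⟨z, hz⟩ := exists_coord hns (fun z => (φ z).ker) (fun z => MonoidHom.normal_ker _)
      f hf _ hD fun m hm =>
        (O.flip.mem_X).mpr ⟨m.2.1, fun z hz => (hφ ⟨z, hz⟩ m).mp (hm ⟨z, hz⟩)⟩
    have := card_le_of_ker_le f hf _ hz
    rw [hφcard] at this
    omega

theorem big_flip (hbig : Big O) (h5 : 5 ≤ d) : Big O.flip := by
  intro x
  have h := Subgroup.relIndex_mul_relIndex _ _ _ (flipK_le_K O hbig h5 x) (O.K_le_stab x)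
  have h0 : (O.flip.K x).relIndex (O.K x) ≠ 0 := Subgroup.index_ne_zero_of_finite
  have hb := hbig x
  rw [← h]
  nlinarith [Nat.pos_of_ne_zero h0]

theorem flipK_eq (hbig : Big O) (h5 : 5 ≤ d) (a : Ω) : O.flip.K a = O.K a :=
  le_antisymm (flipK_le_K O hbig h5 a) (flipK_le_K O.flip (big_flip O hbig h5) h5 a)

end CfsgLib.OrderDegrees.AltSuborbit
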