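import Cfsg.Agent.Lib.OrderDegrees.AltSuborbit.Intersect

/-!
The stabiliser as a subgroup of the product of the two symmetric groups.
-/

set_option autoImplicit false
set_option linter.unusedSectionVars false

namespace CfsgLib.OrderDegrees.AltSuborbit

open MulAction CfsgLib.OrderDegrees.ThompsonWielandt
open scoped commutatorElement

section signs

variable {α β : Type*} [Fintype α] [DecidableEq α] [Fintype β] [DecidableEq β]

/-- the subgroups of the product above the product of the alternating groups -/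
theorem three_cases {S : Subgroup (Equiv.Perm α × Equiv.Perm β)}
    (hA : (alternatingGroup α).prod (alternatingGroup β) ≤ S) (hfst : ∀ x, ∃ y, (x, y) ∈ S)
    {x₀ : Equiv.Perm α} (hx₀ : Equiv.Perm.sign x₀ = -1) :
    S = ⊤ ∨ S = (⊤ : Subgroup (Equiv.Perm α)).prod (alternatingGroup β) ∨
      S = ((Equiv.Perm.sign.comp (MonoidHom.fst (Equiv.Perm α) (Equiv.Perm β))) *
        (Equiv.Perm.sign.comp (MonoidHom.snd (Equiv.Perm α) (Equiv.Perm β)))).ker := by
  have hmem : ∀ p q : Equiv.Perm α × Equiv.Perm β, p ∈ S → Equiv.Perm.sign q.1 = Equiv.Perm.sign p.1 →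
      Equiv.Perm.sign q.2 = Equiv.Perm.sign p.2 → q ∈ S := by
    intro p q hp h1 h2
    have : p⁻¹ * q ∈ S := hA ⟨by simp [h1], by simp [h2]⟩
    simpa using S.mul_mem hp this
  obtain ⟨y₀, hy₀⟩ := hfst x₀
  by_cases hodd : ∃ y, Equiv.Perm.sign y = -1 ∧ ((1 : Equiv.Perm α), y) ∈ S
  · left
    obtain ⟨y₁, hy₁, h1S⟩ := hodd
    rw [eq_top_iff]
    rintro ⟨x, y⟩ -
    rcases Int.units_eq_one_or (Equiv.Perm.sign x) with hx | hx
    · rcases Int.units_eq_one_or (Equiv.Perm.sign y) with hy | hy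
      · exact hmem 1 _ S.one_mem (by simp [hx]) (by simp [hy])
      · exact hmem _ _ h1S (by simp [hx]) (by simp [hy, hy₁])
    · by_cases hy : Equiv.Perm.sign y = Equiv.Perm.sign y₀
      · exact hmem _ _ hy₀ (by simp [hx, hx₀]) hy
      · refine hmem _ _ (S.mul_mem hy₀ h1S) (by simp [hx, hx₀]) ?_
        rcases Int.units_eq_one_or (Equiv.Perm.sign y) with hy' | hy' <;>
          rcases Int.units_eq_one_or (Equiv.Perm.sign y₀) with hy₀' | hy₀' <;>
          simp_all
  · right
    have heven : ∀ p ∈ S, Equiv.Perm.sign p.1 = 1 → Equiv.Perm.sign p.2 = 1 := by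
      intro p hp h1
      rcases Int.units_eq_one_or (Equiv.Perm.sign p.2) with h | h
      · exact h
      · exact absurd ⟨p.2, h, hmem p (1, p.2) hp (by simp [h1]) rfl⟩ hodd
    have hoddv : ∀ p ∈ S, Equiv.Perm.sign p.1 = -1 →
        Equiv.Perm.sign p.2 = Equiv.Perm.sign y₀ := by
      intro p hp h1
      have h := heven _ (S.mul_mem hp hy₀) (by simp [h1, hx₀])
      rw [Prod.snd_mul, map_mul] at h
      rcases Int.units_eq_one_or (Equiv.Perm.sign p.2) with h' | h' <;>
        rcases Int.units_eq_one_or (Equiv.Perm.sign y₀) with hy₀' | hy₀' <;>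
        simp_all
    rcases Int.units_eq_one_or (Equiv.Perm.sign y₀) with hy | hy
    · left
      apply le_antisymm
      · intro p hp
        refine ⟨trivial, ?_⟩
        show p.2 ∈ alternatingGroup β
        rw [Equiv.Perm.mem_alternatingGroup]
        rcases Int.units_eq_one_or (Equiv.Perm.sign p.1) with h | h
        · exact heven p hp h
        · rw [hoddv p hp h, hy]
      · rintro p ⟨-, h2⟩
        rcases Int.units_eq_one_or (Equiv.Perm.sign p.1) with h | h
        · exact hmem 1 p S.one_mem (by simpa using h) (by simpa using h2)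
        · exact hmem _ p hy₀ (by simp [h, hx₀]) (by rw [hy]; simpa using h2)
    · right
      apply le_antisymm
      · intro p hp
        show Equiv.Perm.sign p.1 * Equiv.Perm.sign p.2 = 1
        rcases Int.units_eq_one_or (Equiv.Perm.sign p.1) with h | h
        · simp [h, heven p hp h]
        · simp [h, hoddv p hp h, hy]
      · intro p hp
        change Equiv.Perm.sign p.1 * Equiv.Perm.sign p.2 = 1 at hp
        rcases Int.units_eq_one_or (Equiv.Perm.sign p.1) with h | h
        · exact hmem 1 p S.one_mem (by simpa using h) (by simpa [h] using hp)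
        · refine hmem _ p hy₀ (by simp [h, hx₀]) ?_
          rcases Int.units_eq_one_or (Equiv.Perm.sign p.2) with h' | h' <;> simp_all

end signs

variable {G Ω : Type*} [Group G] [Finite G] [MulAction G Ω] [Finite Ω] {d : ℕ}
  (O : Orbital G Ω d)

theorem relIndex_K_eq [IsPretransitive G Ω] (x y : Ω) :
    (O.K y).relIndex (stabilizer G y) = (O.K x).relIndex (stabilizer G x) := by
  obtain ⟨g, rfl⟩ := exists_smul_eq G x y
  rw [← O.map_K, ← Orbital.map_stab]
  exact Subgroup.relIndex_map_map_of_injective _ _ (MulAut.conj g).injective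

variable {O} [FaithfulSMul G Ω] [IsPreprimitive G Ω] [Nontrivial Ω]

theorem Hyp.exists_embedding (h : Hyp O) [Fintype Ω] [DecidableEq Ω] [DecidableRel O.R] {a b : Ω}
    (hab : O.R a b) :
    ∃ Φ : stabilizer G a →* Equiv.Perm {y // O.R a y} × Equiv.Perm {w // O.R w b ∧ w ≠ a},
      Function.Injective Φ ∧ (∀ g, (Φ g).1 = outHom O a g) ∧
      (alternatingGroup {y // O.R a y}).prod (alternatingGroup {w // O.R w b ∧ w ≠ a}) ≤ Φ.range ∧
      (2 * (O.K a).relIndex (stabilizer G a) = d.factorial →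
        ∀ g, (Φ g).2 ∈ alternatingGroup {w // O.R w b ∧ w ≠ a}) := by
  have h6 := h.le6
  have hd : 5 ≤ Nat.card {y // O.R a y} := by rw [O.card_out]; omega
  have hT : 5 ≤ Nat.card {w // O.R w b ∧ w ≠ a} := by rw [card_T O hab]; omega
  have hA := alt_le_outHom O h.big a
  set C : Subgroup (stabilizer G a) :=
    Subgroup.centralizer ((O.K a).subgroupOf (stabilizer G a) : Set (stabilizer G a)) with hC
  have hCmem : ∀ {x : stabilizer G a},
      x ∈ C ↔ ∀ k ∈ O.K a, k * (x : G) = (x : G) * k := by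
    intro x
    rw [hC, Subgroup.mem_centralizer_iff]
    exact ⟨fun hx k hk => congrArg Subtype.val
      (hx ⟨k, O.K_le_stab a hk⟩ hk), fun hx k hk => Subtype.ext (hx k hk)⟩
  have hKC : ∀ e, O.R a e → ∀ x : stabilizer G a, (x : G) ∈ O.K e → x ∈ C := by
    intro e hae x hx
    refine hCmem.mpr fun k hk => ?_
    rw [← commutatorElement_eq_one_iff_mul_comm, ← Subgroup.mem_bot, ← h.meetK_bot hae,
      commutatorElement_def]
    refine ⟨?_, ?_⟩
    · rw [show k * (x : G) * k⁻¹ * (x : G)⁻¹ = k * ((x : G) * k⁻¹ * (x : G)⁻¹) by group]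
      exact (O.K a).mul_mem hk
        (conj_mem (O.stab_le_normalizer_K a x.2) ((O.K a).inv_mem hk))
    · exact (O.K e).mul_mem (conj_mem (O.stab_le_normalizer_K e (O.K_le_stab_out hae hk)) hx)
        ((O.K e).inv_mem hx)
  have hCn : ∀ g x : stabilizer G a, x ∈ C → g * x * g⁻¹ ∈ C := by
    intro g x hx
    refine hCmem.mpr fun k hk => ?_
    have h1 := hCmem.mp hx _ (conj_mem (O.stab_le_normalizer_K a (inv_mem g.2)) hk)
    rw [inv_inv] at h1
    simp only [Subgroup.coe_mul, Subgroup.coe_inv]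
    calc k * ((g : G) * x * (g : G)⁻¹) = (g : G) * (((g : G)⁻¹ * k * g) * x) * (g : G)⁻¹ := by group
      _ = (g : G) * ((x : G) * ((g : G)⁻¹ * k * g)) * (g : G)⁻¹ := by rw [h1]
      _ = (g : G) * x * (g : G)⁻¹ * k := by group
  have hCA : alternatingGroup {y // O.R a y} ≤ C.map (outHom O a) := by
    refine alt_le hd ?_ ?_
    · intro p hp x hx
      obtain ⟨g, rfl⟩ := hA hp
      obtain ⟨c, hc, rfl⟩ := hx
      exact ⟨g * c * g⁻¹, hCn g c hc, by simp⟩
    · rw [Ne, Subgroup.map_eq_bot_iff, outHom_ker]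
      intro hle
      apply h.neK b
      rw [← le_bot_iff, ← h.meetK_bot hab]
      exact fun x hx =>
        ⟨hle (hKC b hab ⟨x, h.K_le_stab_in hab hx⟩ hx), hx⟩
  have hdecomp : ∀ g : stabilizer G a,
      ∃ (c : stabilizer G a) (u : dom (G := G) a b), c ∈ C ∧ (g : G) = c * u := by
    intro g
    obtain ⟨σ, ⟨c, hc, rfl⟩, hσ⟩ := exists_apply_eq (by omega) hCA ⟨b, hab⟩
      ⟨(g : G) • b, (O.out_iff g.2 b).mp hab⟩
    have hcb : (c : G) • b = (g : G) • b := congrArg Subtype.val hσ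
    refine ⟨c, ⟨(c : G)⁻¹ * g, ⟨(stabilizer G a).mul_mem ((stabilizer G a).inv_mem c.2) g.2, ?_⟩⟩, hc, by simp⟩
    show ((c : G)⁻¹ * g) • b = b
    rw [mul_smul, ← hcb, inv_smul_smul]
  set φ := arcRes O (O.K a) (O.K_le_inf hab) with hφ
  have hφA : alternatingGroup {w // O.R w b ∧ w ≠ a} ≤ φ.range := h.alt_le_image_K hab
  have hgk : ∀ (g : stabilizer G a) (k : O.K a), (g : G) * (k : G) * (g : G)⁻¹ ∈ O.K a :=
    fun g k => conj_mem (O.stab_le_normalizer_K a g.2) k.2
  let P : stabilizer G a → Equiv.Perm {w // O.R w b ∧ w ≠ a} → Prop := fun g σ =>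
    ∀ k : O.K a, φ ⟨_, hgk g k⟩ = σ * φ k * σ⁻¹
  have huniq : ∀ g σ τ, P g σ → P g τ → σ = τ := by
    intro g σ τ hσ hτ
    rw [← inv_mul_eq_one]
    refine eq_one_of_centralizes_alt hT fun p hp => ?_
    obtain ⟨k, rfl⟩ := hφA hp
    have e := (hσ k).symm.trans (hτ k)
    calc φ k * (σ⁻¹ * τ) = σ⁻¹ * (σ * φ k * σ⁻¹) * τ := by group
      _ = σ⁻¹ * (τ * φ k * τ⁻¹) * τ := by rw [e]
      _ = σ⁻¹ * τ * φ k := by group
  have hprod : ∀ (g : stabilizer G a) (c : stabilizer G a) (u : dom (G := G) a b), c ∈ C → (g : G) = c * u →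
      P g (arcHom O a b u) := by
    intro g c u hc hg k
    have hu : (u : G) * (k : G) * (u : G)⁻¹ ∈ O.K a :=
      conj_mem (O.stab_le_normalizer_K a u.2.1) k.2
    have e : (⟨_, hgk g k⟩ : O.K a) = ⟨_, hu⟩ := by
      refine Subtype.ext ?_
      show (g : G) * (k : G) * (g : G)⁻¹ = (u : G) * (k : G) * (u : G)⁻¹
      have := hCmem.mp hc _ hu
      calc (g : G) * (k : G) * (g : G)⁻¹
          = (c : G) * ((u : G) * (k : G) * (u : G)⁻¹) * (c : G)⁻¹ := by rw [hg]; group
        _ = _ := by rw [← this, mul_inv_cancel_right]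
    rw [e]
    exact arcRes_conj O _ u k hu
  have hex : ∀ g, ∃ σ, P g σ := fun g => by
    obtain ⟨c, u, hc, hg⟩ := hdecomp g
    exact ⟨_, hprod g c u hc hg⟩
  choose ψ hψ using hex
  have hψmul : ∀ g g', ψ (g * g') = ψ g * ψ g' := by
    intro g g'
    refine huniq _ _ _ (hψ _) fun k => ?_
    have h1 := hψ g ⟨_, hgk g' k⟩
    have e : (⟨_, hgk (g * g') k⟩ : O.K a) = ⟨_, hgk g ⟨_, hgk g' k⟩⟩ :=
      Subtype.ext (by simp [mul_assoc])
    rw [e, h1, hψ g' k]
    group
  have hψdec : ∀ (g : stabilizer G a) (c : stabilizer G a) (u : dom (G := G) a b), c ∈ C → (g : G) = c * u →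
      ψ g = arcHom O a b u := fun g c u hc hg => huniq g _ _ (hψ g) (hprod g c u hc hg)
  let Φ := (outHom O a).prod (MonoidHom.mk' ψ hψmul)
  refine ⟨Φ, ?_, fun g => rfl, ?_, ?_⟩
  · rw [injective_iff_map_eq_one]
    intro g hg
    have h1 : outHom O a g = 1 := congrArg Prod.fst hg
    have hgK : (g : G) ∈ O.K a := by
      rw [← MonoidHom.mem_ker, outHom_ker, Subgroup.mem_subgroupOf] at h1
      exact h1
    have h2 : ψ g = arcHom O a b ⟨g, O.K_le_inf hab hgK⟩ :=
      hψdec g 1 ⟨g, O.K_le_inf hab hgK⟩ C.one_mem (by simp)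
    have h3 : ψ g = 1 := congrArg Prod.snd hg
    rw [h3, eq_comm, arcHom_eq_one, h.eqK] at h2
    have h4 : (g : G) ∈ O.K a ⊓ O.K b := ⟨hgK, h2⟩
    rw [h.meetK_bot hab, Subgroup.mem_bot] at h4
    exact Subtype.ext h4
  · rintro ⟨p, q⟩ ⟨hp, hq⟩
    obtain ⟨c, hc, rfl⟩ := hCA hp
    obtain ⟨k, rfl⟩ := hφA hq
    refine ⟨c * ⟨k, O.K_le_stab a k.2⟩, ?_⟩
    rw [map_mul]
    refine Prod.ext ?_ ?_
    · show outHom O a c * outHom O a ⟨k, _⟩ = _
      have : outHom O a (⟨k, O.K_le_stab a k.2⟩ : stabilizer G a) = 1 := by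
        rw [← MonoidHom.mem_ker, outHom_ker, Subgroup.mem_subgroupOf]
        exact k.2
      rw [this, mul_one]
    · show ψ c * ψ ⟨k, _⟩ = _
      rw [hψdec c c 1 hc (by simp), map_one, one_mul,
        hψdec ⟨k, O.K_le_stab a k.2⟩ 1 ⟨k, O.K_le_inf hab k.2⟩ C.one_mem (by simp)]
      rfl
  · intro hm g
    obtain ⟨c, u, hc, hg⟩ := hdecomp g
    show ψ g ∈ _
    rw [hψdec g c u hc hg]
    have h1 := card_arc_range O.flip (x := b) (y := a) hab
    rw [h.eqK, relIndex_K_eq O a b] at h1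
    rw [← h1, ← Nat.mul_factorial_pred (show d ≠ 0 by omega), mul_left_comm] at hm
    have h2 := Nat.eq_of_mul_eq_mul_left (show 0 < d by omega) hm
    have : Nontrivial {w // O.R w b ∧ w ≠ a} := Finite.one_lt_card_iff_nontrivial.mp (by omega)
    have h3 := two_mul_nat_card_alternatingGroup (α := {w // O.R w b ∧ w ≠ a})
    rw [Nat.card_perm, card_T O hab, ← h2] at h3
    letI : DecidableRel O.flip.flip.R := ‹DecidableRel O.R›
    have h4 := Subgroup.eq_of_le_of_card_ge
      (alt_le_arcHom O.flip h.symm.big (by omega) (x := b) (y := a) hab)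
      (le_of_eq (Nat.eq_of_mul_eq_mul_left (by norm_num) h3).symm)
    exact h4.ge ⟨u, rfl⟩

end CfsgLib.OrderDegrees.AltSuborbit
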